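import Cfsg.Agent.Ore.OreSp

/-!
Thompson's conjecture for the split classical groups over fields with at least four elements.
-/

set_option autoImplicit false

open Polynomial Module Matrix

namespace Cfsg.Agent.Ore

open Cfsg.Agent.GLn Cfsg.Agent.Fac Cfsg.Agent.Forms Cfsg.Agent.Polar Cfsg.Agent.Polar.PQ

universe u

section
variable {F : Type*} [Field F] {ι : Type*} [Fintype ι] [DecidableEq ι]

theorem nd_transpose {A : Matrix ι ι F} (h : ND (toLin' A)) : ND (toLin' Aᵀ) := fun c => by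
  have key : ∀ A : Matrix ι ι F, finrank F (LinearMap.ker (aeval (toLin' A) (X - C c))) =
      Fintype.card ι - (A - c • 1).rank := fun A => by
    have : aeval (toLin' A) (X - C c) = (A - c • 1).mulVecLin := by
      refine LinearMap.ext fun v => ?_
      simp [Module.algebraMap_end_apply]
    have h := LinearMap.finrank_range_add_finrank_ker (A - c • 1).mulVecLin
    rw [this, Matrix.rank, ← finrank_fintype_fun_eq_card F, ← h]; simp
  have h1 := h.finrank_ker_le c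
  rw [key, ← rank_transpose, transpose_sub, transpose_smul, transpose_one, ← key] at h1
  obtain ⟨w, hw⟩ := finrank_le_one_iff.mp h1
  exact ⟨w, fun u hu => by
    obtain ⟨s, hs⟩ := hw ⟨u, by simp [hu, Module.algebraMap_end_apply]⟩
    exact ⟨s, (congrArg Subtype.val hs).symm⟩⟩

theorem real_of_sq {G : Type*} [Group G] {c : G} (h : IsConj c c⁻¹) :
    ∃ x y : G, 1 = x * c * x⁻¹ * (y * c * y⁻¹) := by
  obtain ⟨w, hw⟩ := isConj_iff.mp h
  exact ⟨1, w, by simp [hw]⟩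

theorem sq_quot {G : Type*} [Group G] (N : Subgroup G) [N.Normal] {c : G}
    (h : ∀ g : G, g ∈ N ∨ ∃ x y : G, g = x * c * x⁻¹ * (y * c * y⁻¹))
    (h1 : ∃ x y : G, 1 = x * c * x⁻¹ * (y * c * y⁻¹)) :
    ∃ c : G ⧸ N, ∀ g : G ⧸ N, ∃ x y : G ⧸ N, g = x * c * x⁻¹ * (y * c * y⁻¹) := by
  refine ⟨c, fun g => ?_⟩
  obtain ⟨g, rfl⟩ := QuotientGroup.mk_surjective g
  obtain ⟨k, hk, x, y, h⟩ : ∃ k : G, (g : G ⧸ N) = k ∧ ∃ x y : G, k = x * c * x⁻¹ * (y * c * y⁻¹) :=
    (h g).elim (fun hg => ⟨1, (QuotientGroup.eq_one_iff g).mpr hg, h1⟩) fun h => ⟨g, rfl, h⟩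
  exact ⟨x, y, by rw [hk, h]; rfl⟩

end

section
variable {F : Type u} [Field F] [Finite F]

theorem exists_pol (h : Big F 4) (a : F) {δ : F} (hδ : δ ≠ 0) (k : ℕ) :
    ∃ s : F, s ≠ 0 ∧ SL2.Ell s δ ∧ Simple ((X - C a) ^ (k + 1) * quad s δ) ∧
      ∀ (V : Type u) [AddCommGroup V] [Module F V] [FiniteDimensional F V] (f : End F V),
        f.charpoly = (X - C a) ^ (k + 1) * quad s δ → DetFull f := by
  obtain ⟨s, s0, he⟩ := exists_ell_ne h hδ
  have i1 := irreducible_quad he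
  refine ⟨s, s0, he, by
    rw [mul_comm]
    exact simple_mul_splits i1 (pow_ne_zero _ (X_sub_C_ne_zero a)) ((Splits.X_sub_C a).pow _),
    fun V _ _ _ f hf => detFull_of_simple i1 (monic_quad _ _) (IsCoprime.pow_right
      (coprime_of_ne i1 (irreducible_X_sub_C a) (monic_quad _ _) (monic_X_sub_C a) fun h => ?_))
      (hf.trans (mul_comm _ _))⟩
  simpa [natDegree_quad] using congrArg natDegree h

end

theorem psl_thompson {F : Type*} [Field F] [Fintype F] (hF : 4 ≤ Fintype.card F) {n : ℕ}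
    (hn : 2 ≤ n) : ∃ c : ProjectiveSpecialLinearGroup (Fin n) F,
      ∀ g : ProjectiveSpecialLinearGroup (Fin n) F, ∃ x y : ProjectiveSpecialLinearGroup (Fin n) F,
        g = (x * c * x⁻¹) * (y * c * y⁻¹) := by
  obtain ⟨p, h1, h2, h3, h4, h5⟩ : ∃ p : F[X], Simple p ∧ dualP (RingHom.id F) p = p ∧
      (-1) ^ n * p.coeff 0 = 1 ∧ (∀ f : End F (Fin n → F), f.charpoly = p → DetFull f) ∧
      ∀ M : End F (Fin n → F), LinearMap.det M = 1 → NS M → Fct M p p := by
    rcases hn.eq_or_lt with rfl | hn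
    · obtain ⟨a, a0, -, a2⟩ := Fac.exists_sq_ne_one hF
      have hs : ((X - C a) * (X - C a⁻¹)).Separable := separable_X_sub_C.mul separable_X_sub_C
        (isCoprime_X_sub_C_of_isUnit_sub (sub_ne_zero.mpr a2).isUnit)
      refine ⟨(X - C a) * (X - C a⁻¹), simple_of_separable hs, ?_, by simp [a0],
        fun f hf => detFull_of_separable (hf ▸ hs) (by simp), fun M h1 h2 => ?_⟩
      · rw [dualP_mul, dualP_X_sub_C a0, dualP_X_sub_C (inv_ne_zero a0), mul_comm]; simp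
      by_cases h : M = 1
      · obtain ⟨B, hB⟩ := exists_charpoly (V := Fin 2 → F)
          ((monic_X_sub_C a).mul (monic_X_sub_C a⁻¹))
          (by rw [(monic_X_sub_C a).natDegree_mul (monic_X_sub_C a⁻¹)]; simp)
        have := nd_of_separable (hB ▸ hs)
        exact ⟨B, this, by rwa [h, one_mul], hB, by rw [h, one_mul, hB]⟩
      · exact fct_two_split (by simp) (h2.of_ne h) a2 a2 (by simp [h1])
    · obtain ⟨k, rfl⟩ : ∃ k, n = k + 3 := ⟨n - 3, by omega⟩
      obtain ⟨s, s0, he, h1, h2⟩ := exists_pol (big_of_card hF) (1 : F) one_ne_zero k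
      refine ⟨_, h1, ?_, ?_, h2 _, fun M => lev (big_of_card hF) one_ne_zero he s0 (by simp)⟩
      · rw [dualP_mul, dualP_pow, dualP_X_sub_C one_ne_zero, dualP_quad _ one_ne_zero]; simp
      · rw [mul_coeff_zero, coeff_zero_pow_X_sub_C, coeff_zero_quad, mul_one,
          show k + 3 = k + 1 + 2 from rfl, pow_add, mul_right_comm, ← mul_pow]
        simp
  obtain ⟨B, b1, -, b2, -⟩ := h5 1 (by simp) fun c hc => by
    simpa [eq_comm] using congrFun (LinearMap.congr_fun hc (Pi.single ⟨0, by omega⟩ 1)) ⟨0, by omega⟩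
  let c := toSL B (by rw [det_of_charpoly b2]; simpa using h3)
  have c1 : slLin c = B := slLin_toSL _ _
  have c2 : (slLin c⁻¹).charpoly = p := by
    rw [charpoly_slLin, ← charpoly_transpose, charpoly_dualM (τ := RingHom.id F) (A := c.1) (by simp)
      (by
        rw [RingHom.coe_id, Matrix.map_id, ← transpose_mul, ← transpose_one]
        exact congrArg (fun g => g.1ᵀ) (inv_mul_cancel c)),
      ← charpoly_slLin, c1, b2, h2]
  have c3 : ND (slLin c⁻¹) := fun t => by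
    obtain ⟨w, hw⟩ := b1 t⁻¹
    refine ⟨w, fun u hu => ?_⟩
    have := congrArg (slLin c) hu
    rw [← Module.End.mul_apply, ← map_mul, mul_inv_cancel, map_one, map_smul, c1] at this
    by_cases ht : t = 0
    · exact ⟨0, by simpa [ht] using this⟩
    · exact hw u ((eq_inv_smul_iff₀ ht).mpr this.symm)
  have key : ∀ g : SpecialLinearGroup (Fin n) F, NS (slLin g) →
      ∃ u v, g = u * c * u⁻¹ * (v * c * v⁻¹) := fun g hg => by
    obtain ⟨D, d1, d2, d3, d4⟩ := h5 _ (det_slLin g) hg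
    exact sl_prod_of_sim (sim_of_nd (c1 ▸ b1) d2 (by rw [c1, b2, d4]) (by rwa [c1, b2]))
      (sim_of_nd c3 d1 (c2.trans d3.symm) (c2 ▸ h1)) (h4 _ (c1 ▸ b2)) (h4 _ c2)
  refine sq_quot _ (c := c) (fun g => or_iff_not_imp_left.mpr fun hg => key g fun t ht =>
    (slLin_not_scalar (by rwa [Ne, QuotientGroup.eq_one_iff]) t ht).elim) (key 1 fun t ht => ?_)
  simpa [eq_comm] using congrFun (LinearMap.congr_fun ht (Pi.single ⟨0, by omega⟩ 1)) ⟨0, by omega⟩

section
variable {F : Type u} [Field F] {π : Polar.FP F (RingHom.id F)} {V : Type*} [AddCommGroup V]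
  [Module F V] {P : PQ π V}

theorem Lev.conj {ι : Type*} [Fintype ι] {e f : ι → V} {x : P.Iso} {A D : Matrix ι ι F}
    (hx : Lev P x e f A D) (k : P.Iso) :
    Lev P (k * x * k⁻¹) (fun i => k • e i) (fun i => k • f i) A D :=
  ⟨fun a => by rw [← act_lc, ← act_lc, ← hx.l]; simp [mul_smul],
    fun a => by rw [← act_lc, ← act_lc, ← hx.r]; simp [mul_smul], fun w hw => by
      rw [mul_smul, mul_smul, hx.w _ (by simpa [mem_Wp', B_act_left] using hw), smul_inv_smul]⟩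

variable [FiniteDimensional F V] [Finite V]

theorem thm_of_fct (hP : P.ND) {m : ℕ} (hm : 0 < m) {p : F[X]} (hs : Simple p)
    (hc : IsCoprime p (dualP (RingHom.id F) p)) (h0 : p.coeff 0 ≠ 0)
    (hw : ∀ e f e' f' : Fin m → V, HF P e f → HF P e' f' →
      ∃ k : P.Iso, (fun i => k • e i) = e' ∧ (fun i => k • f i) = f')
    (hf : ∀ M : End F (Fin m → F), LinearMap.det M = 1 → NS M → Fct M p p)
    {H : Subgroup P.Iso} [H.Normal] (h1 : ∀ (e f : Fin m → V) x A D, HF P e f → Lev P x e f A D →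
      A.charpoly = p → x ∈ H ∧ H ⊔ Subgroup.centralizer {x} = ⊤) (h2 : GD P 1 m) :
    ∃ c ∈ H, ∀ g, GD P g m → ∃ u ∈ H, ∃ v ∈ H, g = u * c * u⁻¹ * (v * c * v⁻¹) := by
  have d0 : ∀ {A : Matrix (Fin m) (Fin m) F}, A.charpoly = p → A.det ≠ 0 := fun hA => by
    simpa [det_eq_sign_charpoly_coeff, hA]
  obtain ⟨e₀, f₀, h₀, k1, k2⟩ := h2.cm hm
  obtain ⟨A₀, a1, -, a2, -⟩ := hf _ (by simpa using k1) k2
  obtain ⟨A₀, rfl⟩ := toLin'.surjective A₀
  rw [charpoly_toLin'] at a2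
  obtain ⟨c, D₀, hc₀⟩ := h₀.exists_lev' hP (d0 a2)
  obtain ⟨c1, c2⟩ := h1 _ _ _ _ _ h₀ hc₀ a2
  have key : ∀ {e f : Fin m → V} {x A D}, HF P e f → Lev P x e f A D → ND (toLin' A) →
      A.charpoly = p → ∀ u, ∃ v ∈ H, u * x * u⁻¹ = v * c * v⁻¹ := fun {e f x A D} h hx a3 a4 u => by
    obtain ⟨k, rfl, rfl⟩ := hw _ _ _ _ h₀ h
    obtain ⟨l, rfl⟩ := isConj_iff.mp (h.conj_sim hP (hc₀.conj k) hx (sim_of_nd a1 a3
      (by simp [charpoly_toLin', a2, a4]) (by rwa [charpoly_toLin', a2])))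
    obtain ⟨v, hv, z, hz, h3⟩ := Subgroup.mem_sup_of_normal_left.mp
      (c2 ▸ Subgroup.mem_top (u * l * k))
    refine ⟨v, hv, ?_⟩
    calc _ = u * l * k * c * (u * l * k)⁻¹ := by group
      _ = v * (z * c * z⁻¹) * v⁻¹ := by rw [← h3]; group
      _ = _ := by rw [Subgroup.mem_centralizer_singleton_iff.mp hz]; group
  refine ⟨c, c1, fun g hg => ?_⟩
  obtain ⟨e, f, h, ⟨a, ha, b, hb, rfl⟩, h3⟩ := hg
  obtain ⟨B, b1, b2, b3, b4⟩ := hf (toLin' (cm P e f (a * b))) (by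
    simp [h.cm_mul _ (h.det_cm_of_mem hb).1, (h.det_cm_of_mem hb).2, (h.det_cm_of_mem' ha).2])
    fun c hc => by
      simpa [cm, h3 hm, eq_comm] using
        congrFun (LinearMap.congr_fun hc (Pi.single ⟨0, hm⟩ 1)) ⟨0, hm⟩
  obtain ⟨B, rfl⟩ := toLin'.surjective B
  rw [Module.End.mul_eq_comp, ← toLin'_mul] at b2 b4
  rw [charpoly_toLin'] at b3 b4
  obtain ⟨y, D', hy⟩ := h.exists_lev' hP (d0 b3)
  obtain ⟨x, D, hx⟩ := h.exists_lev' hP (d0 b4)
  obtain ⟨u, v, huv⟩ := h.factor' hP (h.det_cm_of_mem' ha).1 (h.det_cm_of_mem hb).1 hx hy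
    (b4 ▸ hc) (b3 ▸ hc)
  have b5 : Bᵀ.charpoly = p := by rwa [charpoly_transpose]
  obtain ⟨z, E, hz⟩ := h.swap.exists_lev' hP (d0 b5)
  have h4 := hz.mul hy.swap
  rw [show Bᵀ * D' = 1 by simpa using h.dual hy] at h4
  obtain rfl := eq_inv_of_mul_eq_one_left (h.swap.lev_unique h4 Lev.one)
  obtain ⟨u', hu', h5⟩ := key h hx b2 b4 u
  obtain ⟨v', hv', h6⟩ := key h.swap hz (nd_transpose b1) b5 v
  exact ⟨u', hu', v', hv', by rw [huv, ← h5, ← h6]; group⟩

end

theorem exists_pol' {F : Type u} [Field F] [Fintype F] (hF : 4 ≤ Fintype.card F) (k : ℕ) :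
    ∃ p : F[X], Simple p ∧ IsCoprime p (dualP (RingHom.id F) p) ∧ p.coeff 0 ≠ 0 ∧
      (∀ M : End F (Fin (k + 3) → F), LinearMap.det M = 1 → NS M → Fct M p p) ∧
      ∀ A : Matrix (Fin (k + 3)) (Fin (k + 3)) F, A.charpoly = p →
        DetFull (toLin' A) ∧ IsSquare A.det := by
  obtain ⟨a, a0, a1, a2⟩ := Fac.exists_sq_ne_one hF
  have a3 : a * a ≠ 1 := fun h => a2 (eq_inv_of_mul_eq_one_left h)
  obtain ⟨δ, δ0, δ1, δ2⟩ : ∃ δ : F, δ ≠ 0 ∧ δ ≠ 1 ∧ IsSquare (a ^ (k + 1) * δ) := by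
    rcases Nat.even_or_odd' k with ⟨j, rfl | rfl⟩
    · exact ⟨a, a0, a1, a ^ (j + 1), by ring⟩
    · exact ⟨a * a, mul_ne_zero a0 a0, a3, a ^ (j + 2), by ring⟩
  obtain ⟨s, s0, he, h1, h2⟩ := exists_pol (big_of_card hF) a δ0 k
  have i1 := irreducible_quad he
  have m1 := monic_quad s δ
  have h0 : (quad s δ).coeff 0 ≠ 0 := by rwa [coeff_zero_quad]
  have i2 := irreducible_dualP (τ := RingHom.id F) (by simp) m1 h0 i1
  have key : ∀ (b : F) {g : F[X]}, Irreducible g → g.Monic → g.natDegree = 2 →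
      IsCoprime (X - C b) g := fun b g h1 h2 h3 =>
    coprime_of_ne (irreducible_X_sub_C b) h1 (monic_X_sub_C b) h2 fun h => by simp [← h] at h3
  refine ⟨_, h1, ?_, by simp [coeff_zero_pow_X_sub_C, coeff_zero_quad, a0, δ0],
    fun M => lev (big_of_card hF) a0 he s0 (by simp), fun A hA => ⟨h2 _ _ (by
      rwa [charpoly_toLin']), ?_⟩⟩
  · rw [dualP_mul, dualP_pow, dualP_X_sub_C a0]
    refine IsCoprime.mul_left (IsCoprime.mul_right (IsCoprime.pow ?_) (IsCoprime.pow_left ?_))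
      (IsCoprime.mul_right (key _ i1 m1 (natDegree_quad _ _)).symm.pow_right
        (coprime_of_ne i1 i2 m1 (monic_dualP h0) fun h => δ1 ?_))
    · exact isCoprime_X_sub_C_of_isUnit_sub (sub_ne_zero.mpr a2).isUnit
    · exact key _ i2 (monic_dualP h0) (by rw [natDegree_dualP h0, natDegree_quad])
    · rw [dualP_quad s δ0] at h
      have := (quad_inj h).1
      simp only [RingHom.id_apply] at this
      field_simp at this
      exact this
  · rw [det_eq_sign_charpoly_coeff, hA, mul_coeff_zero, coeff_zero_pow_X_sub_C, coeff_zero_quad,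
      neg_pow a, Fintype.card_fin, show k + 3 = k + 1 + 2 from rfl, pow_add]
    have : (-1 : F) ^ (k + 1) * (-1) ^ (k + 1) = 1 := by rw [← mul_pow]; simp
    convert δ2 using 1
    linear_combination a ^ (k + 1) * δ * this

theorem psp_thompson {F : Type*} [Field F] [Fintype F] (hF : 4 ≤ Fintype.card F) {m : ℕ}
    (hm : 2 ≤ m) : ∃ c : PSp m F, ∀ g : PSp m F, ∃ x y : PSp m F,
      g = (x * c * x⁻¹) * (y * c * y⁻¹) := by
  have hP := spStd_nd (F := F) m
  obtain ⟨c, hc⟩ : ∃ c : (spStd F m).Iso, ∀ g, NSi _ g →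
      ∃ u v, g = u * c * u⁻¹ * (v * c * v⁻¹) := by
    rcases hm.eq_or_lt with rfl | hm
    · obtain ⟨c, -, h1, h2⟩ := sp4_class (by omega) hP (finrank_spStd _)
      refine ⟨c, fun g hg => hg.elim (fun h => h ▸ real_of_sq h1) fun hg => ?_⟩
      obtain ⟨u, v, h⟩ := h2 g hg
      obtain ⟨w, hw⟩ := isConj_iff.mp h1
      exact ⟨u, v * w, by rw [h, _root_.mul_inv_rev, _root_.mul_inv_rev, ← hw]; group⟩
    obtain ⟨k, rfl⟩ : ∃ k, m = k + 3 := ⟨m - 3, by omega⟩
    obtain ⟨p, h1, h2, h3, h4, -⟩ := exists_pol' hF k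
    have h5 : ∀ g, NSi (spStd F (k + 3)) g → GD _ g (k + 3) := fun g hg => by
      simpa [← two_mul] using sp_gd hP hg
    obtain ⟨c, -, hc⟩ := thm_of_fct hP (by omega) h1 h2 h3 (fun e f e' f' h h' => by
      obtain ⟨k, k1, k2, -⟩ := h.exists_mv' hP h' (by
        rw [show Wp _ e f = ⊥ from Submodule.finrank_eq_zero.mp (by
          have := h.finrank_Wp.1; simp at this; omega)]; simp)
      exact ⟨k, funext k1, funext k2⟩) h4 (H := ⊤) (by simp) (h5 1 (Or.inl rfl))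
    exact ⟨c, fun g hg => by simpa using hc g (h5 g hg)⟩
  obtain ⟨c, rfl⟩ := (spEquiv F m).surjective c
  have key : ∀ g, NSi _ (spEquiv F m g) → ∃ u v, g = u * c * u⁻¹ * (v * c * v⁻¹) := fun g hg => by
    obtain ⟨u, v, h⟩ := hc _ hg
    exact ⟨(spEquiv F m).symm u, (spEquiv F m).symm v, (spEquiv F m).injective (by simpa using h)⟩
  exact sq_quot _ (c := c) (fun g => or_iff_not_imp_left.mpr fun hg => key g (Or.inr fun ζ hζ =>
    hg (Subgroup.mem_center_iff.mpr fun k => (spEquiv F m).injective (PQ.iso_ext fun v => by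
      simp [mul_smul, hζ, PQ.act_smul])))) (key 1 (Or.inl (map_one _)))

section
variable {F : Type u} [Field F] {V : Type*} [AddCommGroup V] [Module F V] [FiniteDimensional F V]
  {P : PQ (oFP F) V} {ι : Type} [Fintype ι] [DecidableEq ι] {e f : ι → V}

theorem o_witt (hP : P.ND) (h : HF P e f) {e' f' : ι → V} (h' : HF P e' f') :
    ∃ k : P.Iso, (fun i => k • e i) = e' ∧ (fun i => k • f i) = f' := by
  have k1 : ∀ {e f : ι → V}, HF P e f → ∀ a b : ι → F, P.Q (lc e a + lc f b) = a ⬝ᵥ b :=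
    fun h a b => by
      simpa [o_QEq_iff, o_QEq_iff.mp (sing_zero (P := P))] using h.QEq_combo (zero_mem _) a b
  have k2 : ∀ a b : ι → F, (lc e' ∘ₗ co P f + lc f' ∘ₗ co P e) (lc e a + lc f b) =
      lc e' a + lc f' b := fun a b => by simp [h.co_ee, h.co_ef, h.co_fe, h.co_ff]
  obtain ⟨g, h1, h2⟩ := witt_quad (Q := P.toQuad) (rep_of_nondegenerate hP.pol_toQuad)
    (LinearMap.range (lc e) ⊔ LinearMap.range (lc f)) (lc e' ∘ₗ co P f + lc f' ∘ₗ co P e)
    (fun x hx h0 => by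
      obtain ⟨_, ⟨a, rfl⟩, _, ⟨b, rfl⟩, rfl⟩ := Submodule.mem_sup.mp hx
      rw [k2] at h0
      have a0 := congrArg (co P f') h0
      have b0 := congrArg (co P e') h0
      simp only [map_add, h'.co_ee, h'.co_ef, h'.co_fe, h'.co_ff] at a0 b0
      simp_all)
    fun x hx => by
      obtain ⟨_, ⟨a, rfl⟩, _, ⟨b, rfl⟩, rfl⟩ := Submodule.mem_sup.mp hx
      rw [k2, toQuad_apply, toQuad_apply, k1 h, k1 h']
  obtain ⟨k, hk⟩ := exists_iso hP g (fun x y => by
    rw [← pol_toQuad, ← pol_toQuad]; exact polar_of_isometry h1 x y) fun x => o_QEq_iff.mpr (h1 x)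
  have h3 : ∀ a b : ι → F, k • (lc e a + lc f b) = lc e' a + lc f' b := fun a b => by
    rw [hk, h2 _ (Submodule.add_mem_sup ⟨a, rfl⟩ ⟨b, rfl⟩), k2]
  exact ⟨k, funext fun i => by simpa using h3 (Pi.single i 1) 0,
    funext fun i => by simpa using h3 0 (Pi.single i 1)⟩

theorem o_lev_mem' [Fintype F] (hP : P.ND) (h5 : 5 ≤ finrank F V) (h3 : 3 ≤ Fintype.card ι)
    (h : HF P e f) {x : P.Iso} {A D : Matrix ι ι F} (hx : Lev P x e f A D) (h2 : IsSquare A.det) :
    x ∈ P.EG := by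
  have a0 := left_ne_zero_of_mul_eq_one (dualM_det (h.dual hx))
  obtain ⟨i⟩ : Nonempty ι := Fintype.card_pos_iff.mp (by omega)
  obtain ⟨c, hc⟩ := h2
  have c0 : c ≠ 0 := by rintro rfl; simp [hc] at a0
  have d : (diagonal (Function.update 1 i c) : Matrix ι ι F).det = c := by
    simp [Finset.prod_update_of_mem]
  obtain ⟨y, E, hy⟩ := h.exists_lev' hP (d ▸ c0)
  generalize diagonal (Function.update 1 i c) = B at d hy
  obtain ⟨z, E, hz⟩ := h.exists_lev' hP (A := A * (B * B)⁻¹) (by simp [d, a0, c0])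
  have := hz.mul (hy.mul hy)
  rw [nonsing_inv_mul_cancel_right _ _ (by simp [d, c0])] at this
  rw [← h.lev_unique this hx]
  exact mul_mem (o_lev_mem hP h5 h3 h hz (by simp [d, hc]; field_simp)) (sq y ▸ o_sq_mem_EG hP h5 y)

end

theorem pomega_thompson {F : Type*} [Field F] [Fintype F] (hF : 4 ≤ Fintype.card F) {ι : Type}
    [Fintype ι] [DecidableEq ι] {Q : QuadraticForm F (ι → F)} (hQ : (pol Q).Nondegenerate)
    (h7 : 7 ≤ Fintype.card ι) : ∃ c : POmega F Q, ∀ g : POmega F Q, ∃ x y : POmega F Q,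
      g = (x * c * x⁻¹) * (y * c * y⁻¹) := by
  have hP := ofQuad_nd hQ
  obtain ⟨k, hk⟩ : ∃ k, (Fintype.card ι - 1) / 2 = k + 3 := ⟨(Fintype.card ι - 1) / 2 - 3, by omega⟩
  obtain ⟨p, h1, h2, h3, h4, h5⟩ := exists_pol' hF k
  have h6 : ∀ g ∈ (ofQuad Q).EG, NSi _ g → GD _ g (k + 3) := fun g hg =>
    gd_o (k + 2) _ _ g _ hP (by simpa) (oInv_EG hP (by simp; omega)) hg
  obtain ⟨c, c1, hc⟩ := thm_of_fct hP (by omega) h1 h2 h3 (fun e f e' f' h h' => o_witt hP h h') h4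
    (H := (ofQuad Q).EG) (fun e f x A D h hx hA =>
      ⟨o_lev_mem' hP (by simp; omega) (by simp) h hx (h5 A hA).2, (o_adj hP (by simp; omega)
        (by simp) (by simp; omega) h hx (h5 A hA).1 (h5 A hA).2).2⟩) (h6 1 (one_mem _) (Or.inl rfl))
  let φ := omegaEquiv hQ (show 5 ≤ _ by omega)
  have key : ∀ g, NSi _ (φ g).1 → ∃ u v, g = u * φ.symm ⟨c, c1⟩ * u⁻¹ * (v * φ.symm ⟨c, c1⟩ * v⁻¹) :=
    fun g hg => by
      obtain ⟨u, hu, v, hv, h⟩ := hc _ (h6 _ (φ g).2 hg)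
      exact ⟨φ.symm ⟨u, hu⟩, φ.symm ⟨v, hv⟩, φ.injective (Subtype.ext (by simpa using h))⟩
  exact sq_quot _ (fun g => or_iff_not_imp_left.mpr fun hg => key g (Or.inr fun ζ hζ =>
    hg (Subgroup.mem_center_iff.mpr fun k => φ.injective (Subtype.ext (PQ.iso_ext fun v => by
      simp [mul_smul, hζ, PQ.act_smul]))))) (key 1 (Or.inl (by simp)))

theorem pomega_odd_thompson {F : Type*} [Field F] [Fintype F] (hF : 4 ≤ Fintype.card F) {m : ℕ}
    (hm : 3 ≤ m) (hodd : Odd (Fintype.card F)) : ∃ c : POmega F (quadFormOdd m F),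
      ∀ g : POmega F (quadFormOdd m F), ∃ x y : POmega F (quadFormOdd m F),
        g = (x * c * x⁻¹) * (y * c * y⁻¹) :=
  pomega_thompson hF (Q := QOdd m F) (QOdd_nondegenerate m fun h2 => by
    have := FiniteField.even_card_of_char_two (F := F)
      (CharP.ringChar_of_prime_eq_zero Nat.prime_two (by exact_mod_cast h2))
    rw [Nat.odd_iff] at hodd
    omega) (by simp; omega)

theorem pomega_plus_thompson {F : Type*} [Field F] [Fintype F] (hF : 4 ≤ Fintype.card F) {m : ℕ}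
    (hm : 4 ≤ m) : ∃ c : POmega F (quadFormPlus m F),
      ∀ g : POmega F (quadFormPlus m F), ∃ x y : POmega F (quadFormPlus m F),
        g = (x * c * x⁻¹) * (y * c * y⁻¹) :=
  pomega_thompson hF (Q := QPlus m F) (QPlus_nondegenerate m) (by simp; omega)

end Cfsg.Agent.Ore
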